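import Cfsg.Agent.H238.E8.Frame
import Cfsg.Agent.H791.E8L.Rel
import Cfsg.Agent.H971.RV.Lie


/-!
# S5925: statements of the boxes (helper114)
-/

set_option autoImplicit false

namespace Cfsg.Agent.H114.E8L

open Matrix Cfsg Cfsg.Lie Cfsg.Agent.H238.E8 Cfsg.Agent.H791.E8L
open Cfsg.Agent.ChevalleyStructure Cfsg.Agent.ChevalleyStructure.Elts

/-- `E₈(3)` -/
abbrev G3 : Type := ↥(chevE8.group (ZMod 3))
/-- the Lie algebra -/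
abbrev L3 : Type := chevE8.Idx → ZMod 3
/-- the action -/
abbrev ac (g : G3) (v : L3) : L3 := ((g : GL chevE8.Idx (ZMod 3)) : Matrix chevE8.Idx chevE8.Idx (ZMod 3)) *ᵥ v

theorem ac_mul (g h : G3) (v : L3) : ac (g * h) v = ac g (ac h v) := by
  unfold ac
  rw [Matrix.mulVec_mulVec, Subgroup.coe_mul, Units.val_mul]

theorem ac_one (v : L3) : ac 1 v = v := by
  unfold ac
  rw [Subgroup.coe_one, Units.val_one, Matrix.one_mulVec]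

theorem ac_zero (g : G3) : ac g 0 = 0 := Matrix.mulVec_zero _

/-- order 11 -/
def Mo : Matrix (Fin 5) (Fin 5) (ZMod 3) := !![1,0,1,1,2; 1,1,2,0,2; 2,1,1,2,0; 2,2,1,1,2; 0,2,2,1,1]
/-- order 5 -/
def Fr : Matrix (Fin 5) (Fin 5) (ZMod 3) := !![1,0,0,2,0; 0,0,2,1,0; 0,0,1,0,1; 0,1,0,0,1; 0,0,0,2,1]
theorem Mo_det : Mo.det = 1 := by decide +kernel
theorem Fr_det : Fr.det = 1 := by decide +kernel
def MoS : SpecialLinearGroup (Fin 5) (ZMod 3) := ⟨Mo, Mo_det⟩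
def FrS : SpecialLinearGroup (Fin 5) (ZMod 3) := ⟨Fr, Fr_det⟩

noncomputable def x0 : G3 := ph2 (ZMod 3) MoS
noncomputable def y2 : G3 := ph2 (ZMod 3) FrS
noncomputable def y0 : G3 := ph2 (ZMod 3) FrS * ph1 (ZMod 3) FrS

/-- the diagonal `SL₅(3)` -/
noncomputable def dg (A : SpecialLinearGroup (Fin 5) (ZMod 3)) : G3 := ph2 (ZMod 3) A * ph1 (ZMod 3) A⁻¹.transpose

def X1 : Matrix (Fin 5) (Fin 5) (ZMod 3) := !![0,1,2,1,1;1,0,0,0,0;0,1,0,0,0;0,0,1,0,0;0,0,0,1,0]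
def Y1 : Matrix (Fin 5) (Fin 5) (ZMod 3) := !![1,0,0,0,0;0,0,0,0,1;2,2,0,1,1;0,1,0,0,0;1,0,2,1,2]
def T1 : Matrix (Fin 5) (Fin 5) (ZMod 3) := !![1,0,0,0,0;0,1,0,0,0;0,1,2,1,1;0,0,0,0,1;0,0,0,1,0]
def F1 : Matrix (Fin 5) (Fin 5) (ZMod 3) := !![2,0,0,0,0;0,2,0,0,0;2,2,2,0,2;2,0,1,2,1;2,1,2,2,0]
def Si : Matrix (Fin 5) (Fin 5) (ZMod 3) := !![2,0,1,0,0;1,1,2,1,0;1,1,1,1,0;0,1,2,2,2;1,2,1,0,0]
theorem X1_det : X1.det = 1 := by decide +kernel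
theorem Y1_det : Y1.det = 1 := by decide +kernel
theorem T1_det : T1.det = 1 := by decide +kernel
theorem F1_det : F1.det = 1 := by decide +kernel
theorem Si_det : Si.det = 1 := by decide +kernel
noncomputable def x1 : G3 := dg ⟨X1, X1_det⟩
noncomputable def y1 : G3 := dg ⟨Y1, Y1_det⟩
noncomputable def t1 : G3 := dg ⟨T1, T1_det⟩
noncomputable def f1 : G3 := dg ⟨F1, F1_det⟩
noncomputable def sh : G3 := dg ⟨Si, Si_det⟩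

/-! ## the boxes -/

/-- box B2 -/
def B2 : Prop := ∀ x : G3, x ^ 11 = 1 → x ≠ 1 → ∃ g : G3, g * x * g⁻¹ = x0

/-- box B -/
def BB : Prop := ∀ g : G3, g * x0 = x0 * g → ∃ (e s : SpecialLinearGroup (Fin 5) (ZMod 3)),
  s * MoS = MoS * s ∧ g = ph1 (ZMod 3) e * ph2 (ZMod 3) s

/-- box C -/
def BC : Prop := ∀ x y : G3, x ^ 11 = 1 → x ≠ 1 → y ^ 5 = 1 → y ≠ 1 → y * x * y⁻¹ = x ^ 3 →
  ∃ g : G3, g * x * g⁻¹ = x0 ∧ (g * y * g⁻¹ = y2 ∨ g * y * g⁻¹ = y0)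

/-- uniqueness (boxes F, F2, G, H, Q, I) -/
def Uniq0 : Prop := ∀ t t' : G3, Rel x0 y0 t → Rel x0 y0 t' →
  ∃ κ : G3, κ * x0 = x0 * κ ∧ κ * y0 = y0 * κ ∧ κ * t * κ⁻¹ = t'

/-- no common fixed vector -/
def NF (x y t : G3) : Prop := ∀ v : L3, ac x v = v → ac y v = v → ac t v = v → v = 0

/-- box E (case `y ~ y2`, no fixed vector) -/
def BE : Prop := ∀ t : G3, Rel x0 y2 t → ¬ NF x0 y2 t

/-- box J -/
def BJ : Prop := Rel x1 y1 t1 ∧ x1 ≠ 1 ∧ y1 ≠ 1 ∧ NF x1 y1 t1 ∧ f1 * f1 = t1 ∧ f1 * y1 * f1⁻¹ = y1 ^ 2 ∧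
  orderOf sh = 121

/-- box M: the words `w`, `w'` in `x, y, t, f` (letters 0, 1, 2, 3) are equal in `M₁₁` (test `eqP` of helper837) -/
def BM (eqP : List (Fin 4) → List (Fin 4) → Bool) : Prop := ∀ t f : G3, Rel x0 y2 t →
  (∀ w w' : List (Fin 4), eqP w w' = true → (w.map ![x0, y2, t, f]).prod = (w'.map ![x0, y2, t, f]).prod) →
  (∀ v : L3, ac x0 v = v → ac y2 v = v → ac t v = v → ac f v = v → v = 0) → False

/-- box K -/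
def BK (eqP : List (Fin 4) → List (Fin 4) → Bool) (U2 : Submodule (ZMod 3) L3) : Prop := ∀ f : G3,
  (∀ w w' : List (Fin 4), eqP w w' = true → (w.map ![x1, y1, t1, f]).prod = (w'.map ![x1, y1, t1, f]).prod) →
  ∀ v ∈ U2, ac f v ∈ U2

/-- box L, first part (`H = S₀` or `M₁₁`) -/
def BL1 : Prop := ∀ (H : Subgroup G3) (U : Submodule (ZMod 3) L3), IsCoatom H → U ≠ ⊥ → U ≠ ⊤ →
  (∀ h ∈ H, ∀ v ∈ U, ac h v ∈ U) → (∀ v ∈ U, ac sh v ∈ U) → sh ∈ H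

/-- box L, second part: both special submodules -/
def BL2 (U1 U2 : Submodule (ZMod 3) L3) : Prop := U1 ≠ ⊥ ∧ U2 ≠ ⊥ ∧ U1 ⊔ U2 ≠ ⊤ ∧
  (∀ A : SpecialLinearGroup (Fin 5) (ZMod 3), (∀ v ∈ U1, ac (dg A) v ∈ U1) ∧ ∀ v ∈ U2, ac (dg A) v ∈ U2) ∧
  ∀ h : G3, h * h = 1 → h * x1 * h⁻¹ = x1⁻¹ → h * y1 = y1 * h → h * t1 = t1 * h → ∀ v ∈ U1 ⊔ U2, ac h v ∈ U1 ⊔ U2

/-- every element of order 11 has a partner of order 121 (box P0) -/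
def BP : Prop := ∀ x : G3, x ^ 11 = 1 → x ≠ 1 → ∃ x' : G3, orderOf x' = 121 ∧ ∀ v : L3, ac x v = v → ac x' v = v

/-- the consequence of B2, BC, BE, BJ, Uniq0 (assembly) -/
def Conj1 : Prop := ∀ x y t : G3, Rel x y t → x ≠ 1 → y ≠ 1 → (¬ ∃ g : G3, g * x * g⁻¹ = x0 ∧ g * y * g⁻¹ = y2) →
  ∃ g : G3, g * x * g⁻¹ = x1 ∧ g * y * g⁻¹ = y1 ∧ g * t * g⁻¹ = t1

/-! ## first assembly -/

theorem conj1 (hC : BC) (hE : BE) (hJ : BJ) (hU : Uniq0) : Conj1 := by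
  intro x y t h hx hy hn
  have key : ∀ x y t : G3, Rel x y t → x ≠ 1 → y ≠ 1 → (¬ ∃ g : G3, g * x * g⁻¹ = x0 ∧ g * y * g⁻¹ = y2) →
      ∃ g : G3, g * x * g⁻¹ = x0 ∧ g * y * g⁻¹ = y0 ∧ Rel x0 y0 (g * t * g⁻¹) := by
    intro x y t h hx hy hn
    obtain ⟨g, h1, h2⟩ := hC x y h.x11 hx h.y5 hy h.yx
    rcases h2 with h2 | h2
    · exact absurd ⟨g, h1, h2⟩ hn
    · refine ⟨g, h1, h2, ?_⟩
      have := h.map (MulAut.conj g).toMonoidHom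
      simpa [MulAut.conj_apply, h1, h2] using this
  obtain ⟨g, g1, g2, g3⟩ := key x y t h hx hy hn
  have hn1 : ¬ ∃ g : G3, g * x1 * g⁻¹ = x0 ∧ g * y1 * g⁻¹ = y2 := by
    rintro ⟨g, h1, h2⟩
    have h3 := hJ.1.map (MulAut.conj g).toMonoidHom
    simp only [MulEquiv.coe_toMonoidHom, MulAut.conj_apply, h1, h2] at h3
    refine hE _ h3 ?_
    intro v v1 v2 v3
    have hinv : ∀ (a : G3) (v : L3), ac (g * a * g⁻¹) v = v → ac a (ac g⁻¹ v) = ac g⁻¹ v := by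
      intro a v hv
      have e1 : ac g⁻¹ (ac (g * a * g⁻¹) v) = ac g⁻¹ v := congrArg (ac g⁻¹) hv
      have e2 : g⁻¹ * (g * a * g⁻¹) = a * g⁻¹ := by group
      rw [← ac_mul, e2, ac_mul] at e1
      exact e1
    have h4 := hJ.2.2.2.1 (ac g⁻¹ v) (hinv x1 v (by rw [h1]; exact v1)) (hinv y1 v (by rw [h2]; exact v2)) (hinv t1 v v3)
    have h5 : ac g (ac g⁻¹ v) = v := by rw [← ac_mul, mul_inv_cancel, ac_one]
    rw [← h5, h4, ac_zero]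
  obtain ⟨g', g1', g2', g3'⟩ := key x1 y1 t1 hJ.1 hJ.2.1 hJ.2.2.1 hn1
  obtain ⟨κ, k1, k2, k3⟩ := hU _ _ g3 g3'
  refine ⟨g'⁻¹ * κ * g, ?_, ?_, ?_⟩
  · calc g'⁻¹ * κ * g * x * (g'⁻¹ * κ * g)⁻¹ = g'⁻¹ * (κ * (g * x * g⁻¹) * κ⁻¹) * g' := by group
      _ = g'⁻¹ * x0 * g' := by rw [g1, k1, mul_inv_cancel_right]
      _ = x1 := by rw [← g1']; group
  · calc g'⁻¹ * κ * g * y * (g'⁻¹ * κ * g)⁻¹ = g'⁻¹ * (κ * (g * y * g⁻¹) * κ⁻¹) * g' := by group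
      _ = g'⁻¹ * y0 * g' := by rw [g2, k2, mul_inv_cancel_right]
      _ = y1 := by rw [← g2']; group
  · calc g'⁻¹ * κ * g * t * (g'⁻¹ * κ * g)⁻¹ = g'⁻¹ * (κ * (g * t * g⁻¹) * κ⁻¹) * g' := by group
      _ = g'⁻¹ * (g' * t1 * g'⁻¹) * g' := by rw [k3]
      _ = t1 := by group

end Cfsg.Agent.H114.E8L
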